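import Groth.Agent.GrpQ.H776.ActImage

/-!
# Conjugation: the stabilizer is equivariant
-/

set_option autoImplicit false

universe u

open CategoryTheory CategoryTheory.Limits MonoidalCategory CartesianMonoidalCategory MonObj GrpObj AlgebraicGeometry

namespace Groth.Agent.GrpQ.H777.ActConj

open Groth.Agent.GrpQ.H776.ActImage Groth.Agent.GrpQ.H773.Orbit

variable {S : Scheme.{u}} {G X : Over S} [GrpObj G] (a : AlgGrp.Action G X)

/-- the stabilizer -/
noncomputable abbrev F : Over S := pullback (graph a) (H776.ActImage.diag X)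

/-- projection to `X` -/
noncomputable abbrev pX : F a ⟶ X := pullback.snd (graph a) (H776.ActImage.diag X)

/-- projection to `G` -/
noncomputable abbrev pG : F a ⟶ G := pullback.fst (graph a) (H776.ActImage.diag X) ≫ fst G X

/-- a point of the stabilizer -/
noncomputable def mkF {T : Over S} (h : T ⟶ G) (x : T ⟶ X) (hx : lift h x ≫ a.act = x) : T ⟶ F a :=
  pullback.lift (lift h x) x ((stab_iff a h x).2 hx)

theorem mkF_pX {T : Over S} (h : T ⟶ G) (x : T ⟶ X) (hx : lift h x ≫ a.act = x) :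
    mkF a h x hx ≫ pX a = x := pullback.lift_snd _ _ _

theorem mkF_pG {T : Over S} (h : T ⟶ G) (x : T ⟶ X) (hx : lift h x ≫ a.act = x) :
    mkF a h x hx ≫ pG a = h := by
  rw [mkF, pullback.lift_fst_assoc, lift_fst]

theorem pG_pX_act {T : Over S} (u : T ⟶ F a) : lift (u ≫ pG a) (u ≫ pX a) ≫ a.act = u ≫ pX a :=
  stab_act a u

theorem F_ext {T : Over S} {u v : T ⟶ F a} (h1 : u ≫ pG a = v ≫ pG a) (h2 : u ≫ pX a = v ≫ pX a) :
    u = v := by
  apply pullback.hom_ext
  · apply CartesianMonoidalCategory.hom_ext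
    · rw [Category.assoc, Category.assoc]; exact h1
    · rw [Category.assoc, Category.assoc, stab_snd, stab_snd]; exact h2
  · exact h2

/-- pairs of an element of `G` and a point of the stabilizer -/
noncomputable abbrev E : Over S := pullback (pX a) (snd G X)

theorem conj_cond {T : Over S} (g h : T ⟶ G) (x : T ⟶ X) (hx : lift h x ≫ a.act = x) :
    lift (g * h * g⁻¹) (lift g x ≫ a.act) ≫ a.act = lift g x ≫ a.act := by
  rw [← lift_mul_act, _root_.mul_assoc, _root_.mul_assoc, inv_mul_cancel, _root_.mul_one,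
    lift_mul_act, hx]

/-- conjugation -/
noncomputable def conj : E a ⟶ F a :=
  mkF a ((pullback.snd (pX a) (snd G X) ≫ fst G X) * (pullback.fst (pX a) (snd G X) ≫ pG a) *
      (pullback.snd (pX a) (snd G X) ≫ fst G X)⁻¹)
    (pullback.snd (pX a) (snd G X) ≫ a.act) (by
      have h := conj_cond a (pullback.snd (pX a) (snd G X) ≫ fst G X)
        (pullback.fst (pX a) (snd G X) ≫ pG a) (pullback.fst (pX a) (snd G X) ≫ pX a)
        (pG_pX_act a _)
      have e : lift (pullback.snd (pX a) (snd G X) ≫ fst G X) (pullback.fst (pX a) (snd G X) ≫ pX a) =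
          pullback.snd (pX a) (snd G X) := by
        rw [pullback.condition]
        apply CartesianMonoidalCategory.hom_ext <;> simp
      rwa [e] at h)

theorem conj_pX : conj a ≫ pX a = pullback.snd (pX a) (snd G X) ≫ a.act := mkF_pX a _ _ _

theorem conj_pG : conj a ≫ pG a =
    (pullback.snd (pX a) (snd G X) ≫ fst G X) * (pullback.fst (pX a) (snd G X) ≫ pG a) *
      (pullback.snd (pX a) (snd G X) ≫ fst G X)⁻¹ := mkF_pG a _ _ _

theorem comp_conj_pG {T : Over S} (u : T ⟶ E a) : u ≫ conj a ≫ pG a =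
    (u ≫ pullback.snd (pX a) (snd G X) ≫ fst G X) * (u ≫ pullback.fst (pX a) (snd G X) ≫ pG a) *
      (u ≫ pullback.snd (pX a) (snd G X) ≫ fst G X)⁻¹ := by
  rw [conj_pG, MonObj.comp_mul, MonObj.comp_mul, GrpObj.comp_inv]

theorem comp_act' {T : Over S} (v : T ⟶ G ⊗ X) :
    lift (v ≫ fst G X)⁻¹ (v ≫ a.act) ≫ a.act = v ≫ snd G X := by
  rw [comp_act a v, ← lift_mul_act, inv_mul_cancel, lift_one_act]

theorem cond' {T : Over S} (u : T ⟶ F a) (v : T ⟶ G ⊗ X) (huv : u ≫ pX a = v ≫ a.act) :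
    lift ((v ≫ fst G X)⁻¹ * (u ≫ pG a) * (v ≫ fst G X)) (v ≫ snd G X) ≫ a.act = v ≫ snd G X := by
  rw [_root_.mul_assoc, lift_mul_act, lift_mul_act, ← comp_act, ← huv, pG_pX_act, huv, comp_act']

theorem comp_fst_pG {T : Over S} (w : T ⟶ E a) : w ≫ pullback.fst (pX a) (snd G X) ≫ pG a =
    (w ≫ pullback.snd (pX a) (snd G X) ≫ fst G X)⁻¹ * (w ≫ conj a ≫ pG a) *
      (w ≫ pullback.snd (pX a) (snd G X) ≫ fst G X) := by
  rw [comp_conj_pG]
  generalize w ≫ pullback.snd (pX a) (snd G X) ≫ fst G X = P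
  generalize w ≫ pullback.fst (pX a) (snd G X) ≫ pG a = Q
  group

/-- the inverse construction -/
noncomputable def inv' {T : Over S} (u : T ⟶ F a) (v : T ⟶ G ⊗ X) (huv : u ≫ pX a = v ≫ a.act) :
    T ⟶ E a :=
  pullback.lift
    (mkF a ((v ≫ fst G X)⁻¹ * (u ≫ pG a) * (v ≫ fst G X)) (v ≫ snd G X) (cond' a u v huv)) v
    (mkF_pX a _ _ _)

theorem inv'_conj {T : Over S} (u : T ⟶ F a) (v : T ⟶ G ⊗ X) (huv : u ≫ pX a = v ≫ a.act) :
    inv' a u v huv ≫ conj a = u := by
  apply F_ext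
  · rw [Category.assoc, comp_conj_pG, inv', pullback.lift_snd_assoc, pullback.lift_fst_assoc, mkF_pG]
    generalize v ≫ fst G X = P
    generalize u ≫ pG a = Q
    group
  · rw [Category.assoc, conj_pX, inv', pullback.lift_snd_assoc, huv]

theorem eq_inv' {T : Over S} (u : T ⟶ F a) (v : T ⟶ G ⊗ X) (huv : u ≫ pX a = v ≫ a.act)
    (m : T ⟶ E a) (h1 : m ≫ conj a = u) (h2 : m ≫ pullback.snd (pX a) (snd G X) = v) :
    m = inv' a u v huv := by
  have e1 : m ≫ pullback.snd (pX a) (snd G X) ≫ fst G X = v ≫ fst G X := by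
    rw [reassoc_of% h2]
  have e2 : m ≫ conj a ≫ pG a = u ≫ pG a := by
    rw [reassoc_of% h1]
  apply pullback.hom_ext
  · rw [inv', pullback.lift_fst]
    apply F_ext
    · rw [mkF_pG, Category.assoc, comp_fst_pG, e1, e2]
    · rw [mkF_pX, Category.assoc, pullback.condition, reassoc_of% h2]
  · rw [inv', pullback.lift_snd, h2]

theorem isPullback_conj : IsPullback (conj a) (pullback.snd (pX a) (snd G X)) (pX a) a.act :=
  ⟨⟨conj_pX a⟩, ⟨PullbackCone.IsLimit.mk _ (fun c => inv' a c.fst c.snd c.condition)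
    (fun c => inv'_conj a _ _ _) (fun c => pullback.lift_snd _ _ _)
    (fun c m h1 h2 => eq_inv' a c.fst c.snd c.condition m h1 h2)⟩⟩

end Groth.Agent.GrpQ.H777.ActConj
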