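import Groth.Agent.GrpQ.H776.ActImage

/-!
# Restriction of an action to a saturated open subscheme
-/

set_option autoImplicit false

universe u

open CategoryTheory CategoryTheory.Limits MonoidalCategory CartesianMonoidalCategory MonObj GrpObj AlgebraicGeometry

namespace Groth.Agent.GrpQ.H777.ActRestrict

open Groth.Agent.GrpQ.H776.ActImage Groth.Agent.GrpQ.H773.Orbit

variable {S : Scheme.{u}} {G X : Over S} [GrpObj G] (a : AlgGrp.Action G X) (U : X.left.Opens)
  (hU : a.act.left ⁻¹ᵁ U = (snd G X).left ⁻¹ᵁ U)

/-- the open subscheme over `S` -/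
noncomputable abbrev XU : Over S := Over.mk (U.ι ≫ X.hom)

/-- the inclusion -/
noncomputable def iU : XU U ⟶ X := Over.homMk U.ι rfl

@[simp] theorem iU_left : (iU U).left = U.ι := rfl

instance : IsOpenImmersion (iU U).left := inferInstanceAs (IsOpenImmersion U.ι)

instance : Mono (iU U) := by
  have : Mono (iU U).left := inferInstanceAs (Mono U.ι)
  exact Over.mono_of_mono_left _

omit [GrpObj G] in
theorem isPullback_whisker : IsPullback (G ◁ iU U) (snd G (XU U)) (snd G X) (iU U) := by
  refine ⟨⟨by rw [whiskerLeft_snd]⟩, ⟨PullbackCone.IsLimit.mk _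
    (fun c => lift (c.fst ≫ fst G X) c.snd) ?_ ?_ ?_⟩⟩
  · intro c
    apply CartesianMonoidalCategory.hom_ext
    · simp
    · simp [c.condition]
  · intro c
    simp
  · intro c m h1 h2
    apply CartesianMonoidalCategory.hom_ext
    · rw [lift_fst, ← h1]; simp
    · rw [lift_snd, h2]

omit [GrpObj G] in
theorem isPullback_whisker_left :
    IsPullback (G ◁ iU U).left (snd G (XU U)).left (snd G X).left U.ι :=
  (isPullback_whisker (G := G) U).map (Over.forget S)

instance : IsOpenImmersion (G ◁ iU U).left :=
  MorphismProperty.of_isPullback (isPullback_whisker_left (G := G) U).flip inferInstance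

omit [GrpObj G] in
theorem preimage_le_range :
    (snd G X).left ⁻¹ᵁ (iU U).left.opensRange ≤ (G ◁ iU U).left.opensRange := by
  intro y hy
  obtain ⟨x', hx'⟩ : ∃ x', (iU U).left x' = (snd G X).left y := hy
  obtain ⟨z, hz, -⟩ := Scheme.exists_preimage_of_isPullback (isPullback_whisker_left (G := G) U) y x'
    hx'.symm
  exact ⟨z, hz⟩

section

include hU

theorem range_subset : Set.range ((G ◁ iU U).left ≫ a.act.left) ⊆ Set.range U.ι := by
  rintro _ ⟨y, rfl⟩
  rw [Scheme.Opens.range_ι]
  have h1 : (G ◁ iU U).left y ∈ (snd G X).left ⁻¹ᵁ U := by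
    change (snd G X).left ((G ◁ iU U).left y) ∈ U
    rw [← Scheme.Hom.comp_apply, (isPullback_whisker_left (G := G) U).w, Scheme.Hom.comp_apply]
    exact ((snd G (XU U)).left y).2
  rw [← hU] at h1
  rw [Scheme.Hom.comp_apply]
  exact h1

end

/-- the restricted action, as a morphism of schemes -/
noncomputable def actU : G ⊗ XU U ⟶ XU U :=
  Over.homMk (IsOpenImmersion.lift U.ι ((G ◁ iU U).left ≫ a.act.left) (range_subset a U hU)) (by
    change _ ≫ U.ι ≫ X.hom = _
    rw [IsOpenImmersion.lift_fac_assoc, Category.assoc, Over.w, Over.w])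

theorem actU_i : actU a U hU ≫ iU U = (G ◁ iU U) ≫ a.act :=
  Over.OverMorphism.ext (IsOpenImmersion.lift_fac _ _ _)

/-- the restricted action -/
noncomputable def restrict : AlgGrp.Action G (XU U) where
  act := actU a U hU
  one_act := by
    rw [← cancel_mono (iU U), Category.assoc, actU_i, ← whisker_exchange_assoc, a.one_act]
    simp
  mul_act := by
    rw [← cancel_mono (iU U)]
    simp only [Category.assoc, actU_i]
    rw [← whisker_exchange_assoc, a.mul_act, ← MonoidalCategory.whiskerLeft_comp_assoc (W := G), actU_i]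
    simp

theorem restrict_act_i : (restrict a U hU).act ≫ iU U = (G ◁ iU U) ≫ a.act := actU_i a U hU

/-- comparison of stabilizers -/
noncomputable def stabMap : pullback (graph (restrict a U hU)) (H776.ActImage.diag (XU U)) ⟶
    pullback (graph a) (H776.ActImage.diag X) :=
  pullback.lift (pullback.fst _ _ ≫ (G ◁ iU U)) (pullback.snd _ _ ≫ iU U) (by
    have h1 : (G ◁ iU U) ≫ graph a = graph (restrict a U hU) ≫ (iU U ⊗ₘ iU U) := by
      apply CartesianMonoidalCategory.hom_ext
      · simp [restrict_act_i]
      · simp
    have h2 : iU U ≫ H776.ActImage.diag X = H776.ActImage.diag (XU U) ≫ (iU U ⊗ₘ iU U) := by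
      apply CartesianMonoidalCategory.hom_ext
      · simp
      · simp
    rw [Category.assoc, Category.assoc, h1, h2, pullback.condition_assoc])

theorem stabMap_fst : stabMap a U hU ≫ pullback.fst (graph a) (H776.ActImage.diag X) =
    pullback.fst _ _ ≫ (G ◁ iU U) := pullback.lift_fst _ _ _

theorem stabMap_snd : stabMap a U hU ≫ pullback.snd (graph a) (H776.ActImage.diag X) =
    pullback.snd _ _ ≫ iU U := pullback.lift_snd _ _ _

theorem stab_fst_eq {T : Over S} (z : T ⟶ pullback (graph a) (H776.ActImage.diag X)) :
    z ≫ pullback.fst (graph a) (H776.ActImage.diag X) =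
      lift (z ≫ pullback.fst (graph a) (H776.ActImage.diag X) ≫ fst G X) (z ≫ pullback.snd (graph a) (H776.ActImage.diag X)) := by
  apply CartesianMonoidalCategory.hom_ext
  · simp
  · rw [lift_snd, Category.assoc, stab_snd]

theorem isPullback_stab : IsPullback (stabMap a U hU)
    (pullback.snd (graph (restrict a U hU)) (H776.ActImage.diag (XU U))) (pullback.snd (graph a) (H776.ActImage.diag X)) (iU U) := by
  refine ⟨⟨stabMap_snd a U hU⟩, ⟨PullbackCone.IsLimit.mk _
    (fun c => pullback.lift (lift (c.fst ≫ pullback.fst (graph a) (H776.ActImage.diag X) ≫ fst G X) c.snd) c.snd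
      ?_) ?_ ?_ ?_⟩⟩
  · rw [stab_iff, ← cancel_mono (iU U), Category.assoc, restrict_act_i, lift_whiskerLeft_assoc,
      ← c.condition, stab_act]
  · intro c
    apply pullback.hom_ext
    · rw [Category.assoc, stabMap_fst, pullback.lift_fst_assoc, lift_whiskerLeft, stab_fst_eq,
        c.condition]
    · rw [Category.assoc, stabMap_snd, pullback.lift_snd_assoc, c.condition]
  · intro c
    exact pullback.lift_snd _ _ _
  · intro c m h1 h2
    apply pullback.hom_ext
    · rw [pullback.lift_fst, stab_fst_eq, h2]
      congr 1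
      rw [← h1, Category.assoc, ← Category.assoc (stabMap a U hU), stabMap_fst, Category.assoc,
        whiskerLeft_fst]
    · rw [pullback.lift_snd, h2]

/-- flatness of the stabilizer of the restricted action -/
theorem flat_stab_restrict
    (h : Flat ((pullback.snd (graph a) (H776.ActImage.diag X)).left ∣_ U)) :
    Flat (pullback.snd (graph (restrict a U hU)) (H776.ActImage.diag (XU U))).left := by
  have h1 : IsPullback (stabMap a U hU).left
    (pullback.snd (graph (restrict a U hU)) (H776.ActImage.diag (XU U))).left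
    (pullback.snd (graph a) (H776.ActImage.diag X)).left U.ι := (isPullback_stab a U hU).map (Over.forget S)
  have h2 := (isPullback_morphismRestrict (pullback.snd (graph a) (H776.ActImage.diag X)).left U).flip
  have e : (h1.isoIsPullback _ _ h2).hom ≫ ((pullback.snd (graph a) (H776.ActImage.diag X)).left ∣_ U) =
    (pullback.snd (graph (restrict a U hU)) (H776.ActImage.diag (XU U))).left := h1.isoIsPullback_hom_snd _ _ h2
  rw [← e]
  infer_instance

end Groth.Agent.GrpQ.H777.ActRestrict
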