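import Groth.Agent.GrpQ.H777.ActConj
import Groth.Agent.GrpQ.H777.ActRestrict
import Groth.Agent.Sga3.H775.ActGrpd
import Groth.Agent.S0115
import Mathlib.AlgebraicGeometry.Morphisms.UniversallyOpen

/-!
# Saturation of an open over which the stabilizer is flat
-/

set_option autoImplicit false

universe u

open CategoryTheory CategoryTheory.Limits MonoidalCategory CartesianMonoidalCategory MonObj GrpObj AlgebraicGeometry

namespace Groth.Agent.GrpQ.H777.ActSat

open Groth.Agent.GrpQ.H776.ActImage Groth.Agent.GrpQ.H773.Orbit ActConj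
open Groth.Agent.Sga3.H775.ActGrpd

variable {S : Scheme.{u}} {G X : Over S} [GrpObj G] (a : AlgGrp.Action G X)

theorem exists_comp_point (y z : (G ⊗ X).left) (h : (snd G X).left y = a.act.left z) :
    ∃ w : (G ⊗ X).left, a.act.left w = a.act.left y ∧ (snd G X).left w = (snd G X).left z := by
  obtain ⟨v, hv1, hv2⟩ := Scheme.Pullback.exists_preimage_pullback
    (f := (snd G X).left) (g := a.act.left) y z h
  have e1 : (actGrpd a).c ≫ (actGrpd a).t = pullback.fst _ _ ≫ (actGrpd a).t := by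
    have := (actGrpd a).comp_t (pullback.fst (actGrpd a).s (actGrpd a).t)
      (pullback.snd (actGrpd a).s (actGrpd a).t) pullback.condition
    rw [← this]
    congr 1
    exact (Category.id_comp _).symm.trans (congrArg (· ≫ (actGrpd a).c)
      (pullback.hom_ext (by simp) (by simp)))
  have e2 : (actGrpd a).c ≫ (actGrpd a).s = pullback.snd _ _ ≫ (actGrpd a).s := by
    have := (actGrpd a).comp_s (pullback.fst (actGrpd a).s (actGrpd a).t)
      (pullback.snd (actGrpd a).s (actGrpd a).t) pullback.condition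
    rw [← this]
    congr 1
    exact (Category.id_comp _).symm.trans (congrArg (· ≫ (actGrpd a).c)
      (pullback.hom_ext (by simp) (by simp)))
  refine ⟨(actGrpd a).c v, ?_, ?_⟩
  · have : ((actGrpd a).c ≫ (actGrpd a).t) v = (pullback.fst (actGrpd a).s (actGrpd a).t ≫ (actGrpd a).t) v := by rw [e1]
    rw [Scheme.Hom.comp_apply, Scheme.Hom.comp_apply] at this
    exact this.trans (congrArg _ hv1)
  · have : ((actGrpd a).c ≫ (actGrpd a).s) v = (pullback.snd (actGrpd a).s (actGrpd a).t ≫ (actGrpd a).s) v := by rw [e2]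
    rw [Scheme.Hom.comp_apply, Scheme.Hom.comp_apply] at this
    exact this.trans (congrArg _ hv2)

theorem exists_inv_point (y : (G ⊗ X).left) :
    ∃ w : (G ⊗ X).left, a.act.left w = (snd G X).left y ∧ (snd G X).left w = a.act.left y := by
  refine ⟨(actGrpd a).i y, ?_, ?_⟩
  · have : ((actGrpd a).i ≫ (actGrpd a).t) y = (actGrpd a).s y := by rw [(actGrpd a).i_t]
    rwa [Scheme.Hom.comp_apply] at this
  · have : ((actGrpd a).i ≫ (actGrpd a).s) y = (actGrpd a).t y := by rw [(actGrpd a).i_s]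
    rwa [Scheme.Hom.comp_apply] at this

theorem exists_saturated [Flat a.act.left] [LocallyOfFinitePresentation a.act.left]
    (U₀ : X.left.Opens) (hflat : Flat ((pX a).left ∣_ U₀)) :
    ∃ U₁ : X.left.Opens, U₀ ≤ U₁ ∧ a.act.left ⁻¹ᵁ U₁ = (snd G X).left ⁻¹ᵁ U₁ ∧
      Flat ((pX a).left ∣_ U₁) := by
  let O : (G ⊗ X).left.Opens := (snd G X).left ⁻¹ᵁ U₀
  let U₁ : X.left.Opens := ⟨a.act.left '' O, a.act.left.isOpenMap _ O.isOpen⟩
  have hO : O ≤ a.act.left ⁻¹ᵁ U₁ := fun y hy => ⟨y, hy, rfl⟩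
  refine ⟨U₁, ?_, ?_, ?_⟩
  · intro x hx
    refine ⟨(idn (G := G) (X := X)).left x, ?_, ?_⟩
    · change (snd G X).left ((idn (G := G) (X := X)).left x) ∈ U₀
      have h1 : ((idn (G := G) (X := X)).left ≫ (snd G X).left) x = x := by
        rw [← Over.comp_left, show idn (G := G) ≫ snd G X = 𝟙 X by simp [idn]]
        rfl
      rw [Scheme.Hom.comp_apply] at h1
      rwa [h1]
    · have h1 : ((idn (G := G) (X := X)).left ≫ a.act.left) x = x := by
        rw [← Over.comp_left, idn_act]
        rfl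
      rwa [Scheme.Hom.comp_apply] at h1
  · ext y
    constructor
    · rintro ⟨z, hz, hzy⟩
      obtain ⟨y', hy1, hy2⟩ := exists_inv_point a y
      obtain ⟨w, hw1, hw2⟩ := exists_comp_point a y' z (hy2.trans hzy.symm)
      refine ⟨w, ?_, hw1.trans hy1⟩
      change (snd G X).left w ∈ U₀
      rw [hw2]
      exact hz
    · rintro ⟨z, hz, hzy⟩
      obtain ⟨w, hw1, hw2⟩ := exists_comp_point a y z hzy.symm
      refine ⟨w, ?_, hw1⟩
      change (snd G X).left w ∈ U₀
      rw [hw2]
      exact hz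
  · let f := (pX a).left
    let e2 := (pullback.snd (pX a) (snd G X)).left
    have H1 : IsPullback (pullback.fst (pX a) (snd G X)).left e2 f (snd G X).left :=
      (IsPullback.of_hasPullback (pX a) (snd G X)).map (Over.forget S)
    have H2 : IsPullback (conj a).left e2 f a.act.left := (isPullback_conj a).map (Over.forget S)
    have R2 : IsPullback (e2 ⁻¹ᵁ O).ι (e2 ∣_ O) e2 O.ι := (isPullback_morphismRestrict e2 O).flip
    have A1 := R2.paste_horiz H1
    have A2 := R2.paste_horiz H2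
    have e1 : O.ι ≫ (snd G X).left = ((snd G X).left ∣_ U₀) ≫ U₀.ι := (morphismRestrict_ι _ _).symm
    rw [e1] at A1
    have B1 : IsPullback (f ⁻¹ᵁ U₀).ι (f ∣_ U₀) f U₀.ι := (isPullback_morphismRestrict f U₀).flip
    have C1 := IsPullback.of_right' A1 B1
    have F1 : Flat (e2 ∣_ O) := MorphismProperty.of_isPullback C1 hflat
    let ρ : (O : Scheme.{u}) ⟶ (U₁ : Scheme.{u}) := a.act.left.resLE U₁ O hO
    have hρ : O.ι ≫ a.act.left = ρ ≫ U₁.ι := (Scheme.Hom.resLE_comp_ι _ _).symm
    have hρf : Flat ρ := by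
      have : Flat (ρ ≫ U₁.ι) := by rw [← hρ]; infer_instance
      have h2 : IsOpenImmersion U₁.ι := inferInstance
      exact MorphismProperty.of_postcomp (W := @Flat) ρ U₁.ι h2 this
    have hρs : Surjective ρ := by
      refine ⟨fun x => ?_⟩
      obtain ⟨y, hy, hyx⟩ := x.2
      refine ⟨⟨y, hy⟩, ?_⟩
      apply U₁.ι.isOpenEmbedding.injective
      rw [← Scheme.Hom.comp_apply, ← hρ, Scheme.Hom.comp_apply]
      exact hyx
    rw [hρ] at A2
    have B2 : IsPullback (f ⁻¹ᵁ U₁).ι (f ∣_ U₁) f U₁.ι := (isPullback_morphismRestrict f U₁).flip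
    have C2 := IsPullback.of_right' A2 B2
    obtain ⟨l, C3⟩ : ∃ l, IsPullback l (e2 ∣_ O) (f ∣_ U₁) ρ := ⟨_, C2⟩
    have F2 : Flat l := MorphismProperty.of_isPullback C3.flip hρf
    have F3 : Surjective l := MorphismProperty.of_isPullback C3.flip hρs
    have F4 : Flat (l ≫ (f ∣_ U₁)) := by
      rw [C3.w]
      infer_instance
    exact Groth.Agent.S0115.flat_of_comp l (f ∣_ U₁)

end Groth.Agent.GrpQ.H777.ActSat
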